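import Cfsg.Agent.Lib.Chev.G22Data
import Cfsg.Agent.Lib.Chev.FieldCongr
import Cfsg.Agent.Lib.Small.F9
import Cfsg.Agent.Lib.Classical.HermOrders
import Cfsg.Agent.Lib.Classical.FieldTransfer

/-! # The derived group of G₂(2) is PSU₃(3) -/

set_option autoImplicit false

namespace Cfsg.Agent.Lib.Chev.G22

open Cfsg.Lie Cfsg.Agent.Lib.Twisted Cfsg.Agent.Lib.Twisted.Sparse Cfsg.Agent.Lib.Twisted.Eval
open Cfsg.Agent.Lib.Chev.G22Data Cfsg.Agent.Lib.Chev.PermDiag
open _root_.Cfsg.Agent.Lib.PermComp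
open Cfsg.Agent.Lib.Small.F9 (Fnine)
open scoped Matrix

instance : Fact (Nat.Prime 2) := ⟨Nat.prime_two⟩

/-! ### The matrix group over the field with two elements -/

/-- The one-letter words. -/
def Sw : Set (List (ℕ × ZMod 2)) := {W | ∃ (r : Fin 12) (t : ZMod 2), W = [((r : ℕ), t)]}

theorem group_eq : chevG2.group (ZMod 2) = chevG2.genSubgroup (ZMod 2) Sw := by
  unfold ChevalleyDatum.group ChevalleyDatum.genSubgroup
  congr 1
  ext g
  constructor
  · rintro ⟨r, t, h⟩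
    refine ⟨[((r : ℕ), t)], ⟨⟨r, r.2⟩, t, rfl⟩, ?_⟩
    rw [h]
    simp [ChevalleyDatum.wordMat, ChevalleyDatum.x]
  · rintro ⟨W, ⟨r, t, rfl⟩, h⟩
    refine ⟨⟨r, r.2⟩, t, ?_⟩
    rw [h]
    simp [ChevalleyDatum.wordMat, ChevalleyDatum.x, show (r : ℕ) < chevG2.nroots from r.2]

theorem letters_mem : ∀ (r : Fin 12) (t : ZMod 2), Eval.lettersOf [((r : ℕ), t)] ∈ b_ents.map (·.1) := by
  decide +kernel

theorem ents_of : ∀ ent ∈ b_ents, ∃ (r : Fin 12) (t : ZMod 2), Eval.lettersOf [((r : ℕ), t)] = ent.1 := by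
  decide +kernel

theorem oks : ∀ (r : Fin 12), okRoot chevG2 (r : ℕ) = true := by decide +kernel

theorem hid1 : p1_mask = 2 ^ p1_w - 1 ∧ ∀ i < p1_n, Core.app p1_w p1_mask p1_idc i = i := by
  decide +kernel

theorem hid2 : p2_mask = 2 ^ p2_w - 1 ∧ ∀ i < p2_n, Core.app p2_w p2_mask p2_idc i = i := by
  decide +kernel

theorem exists_repP : ∀ c ∈ cP_T, ∃ g, Core.Rep 9 511 (Equiv.refl (Fin 63)) c g := by
  intro c hc
  rw [← ents_codes] at hc
  obtain ⟨ent, hent, rfl⟩ := List.mem_map.1 hc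
  have h := (Core.allL_eq_true _ _).1 b_ents_ok ent hent
  rw [Bridge.entOK, Core.ifB_eq_true] at h
  exact Simple.exists_rep_of_valid hid1.1 hid1.2 h.1

/-- The matrix group is isomorphic to the permutation group. -/
theorem nonempty_equiv_P : Nonempty (chevG2.group (ZMod 2) ≃* Core.H 9 511 (Equiv.refl (Fin 63)) cP_T) := by
  have h := Bridge.main (D := chevG2) (p := 2) (S := Sw) (G := b_ents)
    (cert := b_span) (w' := 9) (mask' := 511) (idc' := p1_idc)
    hid1.1 hid1.2 b_omega_ok b_span_ok b_ents_ok b_tabs_ok ?_ ?_ ?_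
  · rw [ents_codes, ← group_eq] at h
    exact h
  · rintro W ⟨r, t, rfl⟩
    exact List.mem_map.1 (letters_mem r t) |>.imp fun x hx => ⟨hx.1, hx.2.symm⟩
  · intro ent hent
    obtain ⟨r, t, h⟩ := ents_of ent hent
    exact ⟨_, ⟨r, t, rfl⟩, h⟩
  · rintro W ⟨r, t, rfl⟩ l hl
    rw [List.mem_singleton] at hl
    subst hl
    exact oks r

theorem derived : commutator (Core.H 9 511 (Equiv.refl (Fin 63)) cP_T) =
      (Core.H 9 511 (Equiv.refl (Fin 63)) cA_T).subgroupOf (Core.H 9 511 (Equiv.refl (Fin 63)) cP_T) ∧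
    Core.H 9 511 (Equiv.refl (Fin 63)) cA_T ≤ Core.H 9 511 (Equiv.refl (Fin 63)) cP_T := by
  have h := Bridge.derived_main (n := p1_n) (w := p1_w) (mask := p1_mask) (L := p1_L)
    (maskL := p1_maskL) (idc := p1_idc) (e := Equiv.refl (Fin 63)) (Tg := cP_T)
    (lsP := cP_levels) (lsA := cA_levels) (progP := cP_prog) (progA := cA_prog)
    (comms := b_comms) (q := 2) (by norm_num) exists_repP cP_ok derived_ok
    (by rw [comms_codes]; exact cA_ok) (by rw [cP_order, cA_order])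
  rw [comms_codes] at h
  exact h

theorem exists_repA : ∀ c ∈ cA_T, ∃ g, Core.Rep 9 511 (Equiv.refl (Fin 63)) c g := by
  intro c hc
  rw [← comms_codes] at hc
  have h : Bridge.derivedOK p1_n p1_w p1_mask p1_L p1_maskL p1_idc cP_T cA_levels b_comms = true := derived_ok
  rw [Bridge.derivedOK, Core.ifB_eq_true, Core.ifB_eq_true, Core.allL_eq_true, Core.allL_eq_true] at h
  obtain ⟨h1, h2, -⟩ := h
  obtain ⟨x, hx, rfl⟩ := List.mem_map.1 hc
  have h4 := h2 x hx
  rw [Core.ifB_eq_true, Core.ifB_eq_true] at h4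
  obtain ⟨h5, h6, h7⟩ := h4
  have h5' := (Core.memN_eq_true _ _).1 h5
  have h6' := (Core.memN_eq_true _ _).1 h6
  obtain ⟨a, ha⟩ := exists_repP _ h5'
  obtain ⟨b, hb⟩ := exists_repP _ h6'
  have hm := hid1.1
  have hid := hid1.2
  rw [Nat.eq_of_beq_eq_true h7]
  exact ⟨_, ((ha.comp hm hb).comp hm (ha.inv hm hid (Nat.eq_of_beq_eq_true (h1 _ h5')))).comp hm
    (hb.inv hm hid (Nat.eq_of_beq_eq_true (h1 _ h6')))⟩

theorem card_A : Nat.card (Core.H 9 511 (Equiv.refl (Fin 63)) cA_T) = 6048 := by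
  obtain ⟨-, -, -, -, -, h⟩ := Core.main_of_checkAll (e := Equiv.refl (Fin 63)) exists_repA cA_ok
  rw [h, cA_order]

/-! ### The two permutation groups -/

theorem valid2 : ∀ c ∈ cB_T, Simple.validB p2_n p2_w p2_mask p2_idc c = true := by decide +kernel

theorem exists_repB : ∀ c ∈ cB_T, ∃ g, Core.Rep 9 511 (Equiv.refl (Fin 224)) c g := by
  intro c hc
  exact Simple.exists_rep_of_valid hid2.1 hid2.2 (valid2 c hc)

theorem exists_repC : ∀ c ∈ b_triples.map (·.2.2), ∃ g, Core.Rep 9 511 (eSum 63 224) c g := by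
  intro c hc
  obtain ⟨x, hx, rfl⟩ := List.mem_map.1 hc
  obtain ⟨g1, h1⟩ := exists_repA x.1 (by rw [← triples_1]; exact List.mem_map_of_mem hx)
  obtain ⟨g2, h2⟩ := exists_repB x.2.1 (by rw [← triples_2]; exact List.mem_map_of_mem hx)
  exact ⟨_, rep_sum (triples_ok x hx) h1 h2⟩

theorem cC_ok' : Core.checkAll (63 + 224) 9 511 p3_L p3_maskL p3_idc (b_triples.map (·.2.2)) cC_prog cC_levels = true := by
  rw [triples_3]
  exact cC_ok

theorem card_C : Nat.card (Core.H 9 511 (eSum 63 224) (b_triples.map (·.2.2))) = 6048 := by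
  obtain ⟨-, -, -, -, -, h⟩ := Core.main_of_checkAll (e := eSum 63 224) exists_repC cC_ok'
  rw [h, cC_order]

theorem card_B : Nat.card (Core.H 9 511 (Equiv.refl (Fin 224)) cB_T) = 6048 := by
  obtain ⟨-, -, -, -, -, h⟩ := Core.main_of_checkAll (e := Equiv.refl (Fin 224)) exists_repB cB_ok
  rw [h, cB_order]

theorem A_equiv_B : Nonempty (Core.H 9 511 (Equiv.refl (Fin 63)) cA_T ≃* Core.H 9 511 (Equiv.refl (Fin 224)) cB_T) := by
  have h := equiv_of_triples (w := 9) (mask := 511) (N₁ := 63) (N₂ := 224) b_triples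
    (fun x hx => exists_repA x.1 (by rw [← triples_1]; exact List.mem_map_of_mem hx))
    (fun x hx => exists_repB x.2.1 (by rw [← triples_2]; exact List.mem_map_of_mem hx))
    triples_ok
    (by rw [triples_1, card_A, card_C]) (by rw [triples_2, card_B, card_C])
  rw [triples_1, triples_2] at h
  exact h

/-! ### The special unitary group -/

/-- Decoding an element of the field. -/
def mkF (c : ℕ) : Fnine := ⟨((c % 3 : ℕ) : ZMod 3), ((c / 3 : ℕ) : ZMod 3)⟩

/-- Decoding a matrix. -/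
def mkM (c : ℕ) : Matrix (Fin 3) (Fin 3) Fnine :=
  fun i j => mkF (Core.app 4 15 (Core.app 12 4095 c i) j)

/-- The isotropic vectors. -/
def ptC (k : ℕ) : Fin 3 → Fnine := fun j => mkF (Core.app 4 15 (Core.app 12 4095 u_Om k) j)

/-- The family of vectors. -/
def Om (k : Fin 224) : Fin 3 → Fnine := ptC k

/-- A code of a vector. -/
def cdV (v : Fin 3 → Fnine) : ℕ := (v 0).code + 16 * (v 1).code + 256 * (v 2).code

set_option maxRecDepth 100000 in
theorem cd_mono : ∀ k : Fin 223, cdV (ptC k) < cdV (ptC (k + 1)) := by decide +kernel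

theorem Om_injective : Function.Injective Om := by
  have h : StrictMono (fun k : Fin 224 => cdV (Om k)) := by
    apply Fin.strictMono_iff_lt_succ.2
    intro i
    exact cd_mono i
  intro a b hab
  exact h.injective (by simp only [hab])

theorem mulVec3 (M : Matrix (Fin 3) (Fin 3) Fnine) (v : Fin 3 → Fnine) (j : Fin 3) :
    (M *ᵥ v) j = M j 0 * v 0 + M j 1 * v 1 + M j 2 * v 2 := by
  simp [Matrix.mulVec, dotProduct, Fin.sum_univ_three]

set_option maxRecDepth 100000 in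
theorem inv_ok : ∀ i j : Fin 3, mkM u_inv i 0 * 0 = 0 ∧
    (mkF (Core.app 4 15 (Core.app 12 4095 u_Om ((u_ks 0 : Fin 224) : ℕ)) i) * mkM u_inv 0 j +
     mkF (Core.app 4 15 (Core.app 12 4095 u_Om ((u_ks 1 : Fin 224) : ℕ)) i) * mkM u_inv 1 j +
     mkF (Core.app 4 15 (Core.app 12 4095 u_Om ((u_ks 2 : Fin 224) : ℕ)) i) * mkM u_inv 2 j =
      if i = j then 1 else 0) := by
  decide +kernel

theorem Om_span : Submodule.span Fnine (Set.range Om) = ⊤ := by
  rw [eq_top_iff]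
  intro v _
  have h : v = (mkM u_inv *ᵥ v) 0 • Om (u_ks 0) + (mkM u_inv *ᵥ v) 1 • Om (u_ks 1) +
      (mkM u_inv *ᵥ v) 2 • Om (u_ks 2) := by
    funext i
    have h0 := (inv_ok i 0).2
    have h1 := (inv_ok i 1).2
    have h2 := (inv_ok i 2).2
    simp only [Pi.add_apply, Pi.smul_apply, smul_eq_mul, mulVec3]
    have e : ∀ j, Om (u_ks j) i = mkF (Core.app 4 15 (Core.app 12 4095 u_Om ((u_ks j : Fin 224) : ℕ)) i) :=
      fun _ => rfl
    rw [e, e, e]
    fin_cases i <;> simp only [Fin.zero_eta, Fin.mk_one, Fin.reduceFinMk] at h0 h1 h2 ⊢ <;>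
      simp at h0 h1 h2 <;> linear_combination (v 0) * (-h0) + (v 1) * (-h1) + (v 2) * (-h2)
  rw [h]
  refine add_mem (add_mem ?_ ?_) ?_ <;>
    exact Submodule.smul_mem _ _ (Submodule.subset_span ⟨_, rfl⟩)

/-- Orthonormal columns give isometries. -/
theorem herm_preserved (M : Matrix (Fin 3) (Fin 3) Fnine)
    (hU : ∀ j k : Fin 3, M 0 j * (M 0 k) ^ 3 + M 1 j * (M 1 k) ^ 3 + M 2 j * (M 2 k) ^ 3 =
      if j = k then 1 else 0)
    (u v : Fin 3 → Fnine) :
    Cfsg.hermForm 3 Fnine 3 (M *ᵥ u) (M *ᵥ v) = Cfsg.hermForm 3 Fnine 3 u v := by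
  have h3 : ∀ a b : Fnine, (a + b) ^ 3 = a ^ 3 + b ^ 3 := by decide +kernel
  have h00 := hU 0 0
  have h01 := hU 0 1
  have h02 := hU 0 2
  have h10 := hU 1 0
  have h11 := hU 1 1
  have h12 := hU 1 2
  have h20 := hU 2 0
  have h21 := hU 2 1
  have h22 := hU 2 2
  simp only [Fin.isValue, if_true, Fin.reduceEq, if_false] at h00 h01 h02 h10 h11 h12 h20 h21 h22
  simp only [Cfsg.hermForm, Fin.sum_univ_three, mulVec3, h3, mul_pow]
  linear_combination u 0 * v 0 ^ 3 * h00 + u 0 * v 1 ^ 3 * h01 + u 0 * v 2 ^ 3 * h02 +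
    u 1 * v 0 ^ 3 * h10 + u 1 * v 1 ^ 3 * h11 + u 1 * v 2 ^ 3 * h12 +
    u 2 * v 0 ^ 3 * h20 + u 2 * v 1 ^ 3 * h21 + u 2 * v 2 ^ 3 * h22

theorem det1 : (mkM u_m1).det = 1 := by
  rw [Matrix.det_fin_three]
  decide +kernel

theorem det2 : (mkM u_m2).det = 1 := by
  rw [Matrix.det_fin_three]
  decide +kernel

theorem U1 : ∀ j k : Fin 3, mkM u_m1 0 j * (mkM u_m1 0 k) ^ 3 + mkM u_m1 1 j * (mkM u_m1 1 k) ^ 3 +
    mkM u_m1 2 j * (mkM u_m1 2 k) ^ 3 = if j = k then 1 else 0 := by decide +kernel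

theorem U2 : ∀ j k : Fin 3, mkM u_m2 0 j * (mkM u_m2 0 k) ^ 3 + mkM u_m2 1 j * (mkM u_m2 1 k) ^ 3 +
    mkM u_m2 2 j * (mkM u_m2 2 k) ^ 3 = if j = k then 1 else 0 := by decide +kernel

/-- The first generator. -/
def g1 : Cfsg.SU 3 Fnine 3 := ⟨⟨mkM u_m1, det1⟩, fun u v => herm_preserved _ U1 u v⟩

/-- The second generator. -/
def g2 : Cfsg.SU 3 Fnine 3 := ⟨⟨mkM u_m2, det2⟩, fun u v => herm_preserved _ U2 u v⟩

set_option maxRecDepth 100000 in
theorem act1 : ∀ (k : Fin 224) (j : Fin 3), mkM u_m1 j 0 * ptC k 0 + mkM u_m1 j 1 * ptC k 1 +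
    mkM u_m1 j 2 * ptC k 2 = ptC (Core.app 9 511 u_c1 k) j := by decide +kernel

set_option maxRecDepth 100000 in
theorem act2 : ∀ (k : Fin 224) (j : Fin 3), mkM u_m2 j 0 * ptC k 0 + mkM u_m2 j 1 * ptC k 1 +
    mkM u_m2 j 2 * ptC k 2 = ptC (Core.app 9 511 u_c2 k) j := by decide +kernel

theorem cB_T_eq : cB_T = [u_c1, u_c2] := by decide +kernel

/-- The hom into `GL`. -/
def suToGL : Cfsg.SU 3 Fnine 3 →* GL (Fin 3) Fnine :=
  Matrix.SpecialLinearGroup.toGL.comp (Cfsg.SU 3 Fnine 3).subtype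

theorem suToGL_injective : Function.Injective suToGL := by
  intro a b h
  apply Subtype.ext
  apply Subtype.ext
  exact congrArg (fun x : GL (Fin 3) Fnine => (x : Matrix (Fin 3) (Fin 3) Fnine)) h

theorem rel_of (g : Cfsg.SU 3 Fnine 3) (c : ℕ) (π : Equiv.Perm (Fin 224))
    (hπ : Core.Rep 9 511 (Equiv.refl (Fin 224)) c π)
    (h : ∀ (k : Fin 224) (j : Fin 3), ((g.1 : Matrix (Fin 3) (Fin 3) Fnine)) j 0 * ptC k 0 +
      ((g.1 : Matrix (Fin 3) (Fin 3) Fnine)) j 1 * ptC k 1 + ((g.1 : Matrix (Fin 3) (Fin 3) Fnine)) j 2 * ptC k 2 =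
      ptC (Core.app 9 511 c k) j) :
    RelV Om (suToGL g) π := by
  intro k
  funext j
  have h1 : Core.app 9 511 c k = π k := by simpa using hπ k
  have h2 := h k j
  rw [h1] at h2
  rw [mulVec3]
  exact h2

theorem nonempty_SU_equiv : Nonempty (Cfsg.SU 3 Fnine 3 ≃* Core.H 9 511 (Equiv.refl (Fin 224)) cB_T) := by
  have hr1 : ∃ π, Core.Rep 9 511 (Equiv.refl (Fin 224)) u_c1 π := exists_repB _ (by rw [cB_T_eq]; simp)
  have hr2 : ∃ π, Core.Rep 9 511 (Equiv.refl (Fin 224)) u_c2 π := exists_repB _ (by rw [cB_T_eq]; simp)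
  obtain ⟨π1, h1⟩ := hr1
  obtain ⟨π2, h2⟩ := hr2
  have r1 := rel_of g1 u_c1 π1 h1 act1
  have r2 := rel_of g2 u_c2 π2 h2 act2
  obtain ⟨φ, -⟩ := exists_mulEquiv Om Om_injective (Bridge.det_of_span Om_span)
    {g : GL (Fin 3) Fnine | g = suToGL g1 ∨ g = suToGL g2}
    {g | ∃ c ∈ cB_T, Core.Rep 9 511 (Equiv.refl (Fin 224)) c g}
    (by
      rintro g (rfl | rfl)
      · exact ⟨π1, ⟨u_c1, by rw [cB_T_eq]; simp, h1⟩, r1⟩
      · exact ⟨π2, ⟨u_c2, by rw [cB_T_eq]; simp, h2⟩, r2⟩)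
    (by
      rintro π ⟨c, hc, hπ⟩
      rw [cB_T_eq] at hc
      simp only [List.mem_cons, List.not_mem_nil, or_false] at hc
      rcases hc with rfl | rfl
      · obtain rfl : π = π1 := hπ.unique h1
        exact ⟨_, Or.inl rfl, r1⟩
      · obtain rfl : π = π2 := hπ.unique h2
        exact ⟨_, Or.inr rfl, r2⟩)
  have hφ : Nat.card (Subgroup.closure {g : GL (Fin 3) Fnine | g = suToGL g1 ∨ g = suToGL g2}) = 6048 := by
    rw [Nat.card_congr φ.toEquiv]
    exact card_B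
  have hcard : Nat.card (Cfsg.SU 3 Fnine 3) = 6048 := by
    have hF : Fintype.card Fnine = 3 ^ 2 := by rw [Fnine.card_eq]; norm_num
    have h := Cfsg.Agent.Lib.Classical.HermOrders.card_SU (F := Fnine) (q := 3) hF 3 (by norm_num)
    norm_num [Finset.prod_range_succ] at h
    omega
  have hle : Subgroup.closure {g : GL (Fin 3) Fnine | g = suToGL g1 ∨ g = suToGL g2} ≤ suToGL.range := by
    rw [Subgroup.closure_le]
    rintro g (rfl | rfl) <;> exact ⟨_, rfl⟩
  have hrange : Nat.card suToGL.range = 6048 := by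
    rw [← hcard]
    exact (Nat.card_congr (MonoidHom.ofInjective suToGL_injective).toEquiv).symm
  have heq : Subgroup.closure {g : GL (Fin 3) Fnine | g = suToGL g1 ∨ g = suToGL g2} = suToGL.range :=
    Subgroup.eq_of_le_of_card_ge hle (by rw [hφ, hrange])
  exact ⟨(MonoidHom.ofInjective suToGL_injective).trans
    ((MulEquiv.subgroupCongr heq.symm).trans φ)⟩

/-! ### Change of field -/

section congr

variable {K K' : Type*} [Field K] [Field K']

theorem hermForm_map (f : K ≃+* K') (n q : ℕ) (u v : Fin n → K) :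
    Cfsg.hermForm n K' q (f ∘ u) (f ∘ v) = f (Cfsg.hermForm n K q u v) := by
  simp [Cfsg.hermForm, map_sum]

theorem mulVec_map (f : K ≃+* K') {n : ℕ} (M : Matrix (Fin n) (Fin n) K) (u : Fin n → K) :
    (M.map f) *ᵥ (f ∘ u) = f ∘ (M *ᵥ u) := by
  funext i
  simp [Matrix.mulVec, dotProduct, map_sum]

theorem su_map_le (f : K ≃+* K') (n q : ℕ) :
    (Cfsg.SU n K q).map (Cfsg.Agent.Lib.Classical.FieldTransfer.slCongr f).toMonoidHom ≤ Cfsg.SU n K' q := by
  rintro _ ⟨g, hg, rfl⟩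
  intro u v
  have hu : u = f ∘ (f.symm ∘ u) := by funext i; simp
  have hv : v = f ∘ (f.symm ∘ v) := by funext i; simp
  have hM : ((Cfsg.slToMat n K') ((Cfsg.Agent.Lib.Classical.FieldTransfer.slCongr f).toMonoidHom g)) =
      ((g : Matrix (Fin n) (Fin n) K)).map f := rfl
  rw [hM, hu, hv, mulVec_map, mulVec_map, hermForm_map, hermForm_map]
  exact congrArg f (hg _ _)

theorem su_map_eq (f : K ≃+* K') (n q : ℕ) :
    (Cfsg.SU n K q).map (Cfsg.Agent.Lib.Classical.FieldTransfer.slCongr f).toMonoidHom = Cfsg.SU n K' q := by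
  apply le_antisymm (su_map_le f n q)
  intro g hg
  refine ⟨(Cfsg.Agent.Lib.Classical.FieldTransfer.slCongr f.symm) g, su_map_le f.symm n q ⟨g, hg, rfl⟩, ?_⟩
  apply Subtype.ext
  ext i j
  simp

theorem nonempty_su_congr (f : K ≃+* K') (n q : ℕ) : Nonempty (Cfsg.SU n K q ≃* Cfsg.SU n K' q) :=
  ⟨((Cfsg.Agent.Lib.Classical.FieldTransfer.slCongr f).subgroupMap (Cfsg.SU n K q)).trans
    (MulEquiv.subgroupCongr (su_map_eq f n q))⟩

end congr

/-- The derived group of the permutation group. -/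
theorem nonempty_main : Nonempty (commutator (chevG2.group (ZMod 2)) ≃* Cfsg.SU 3 Fnine 3) := by
  obtain ⟨e1⟩ := nonempty_equiv_P
  obtain ⟨e2⟩ := Eval.commutator_mulEquiv e1
  obtain ⟨e3⟩ := A_equiv_B
  obtain ⟨e4⟩ := nonempty_SU_equiv
  exact ⟨e2.trans ((MulEquiv.subgroupCongr derived.1).trans
    ((Subgroup.subgroupOfEquivOfLe derived.2).trans (e3.trans e4.symm)))⟩

/-- The final isomorphism. -/
theorem nonempty_equiv {F K : Type*} [Field F] [Fintype F] [Field K] [Fintype K]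
    (hF : Fintype.card F = 2) (hK : Fintype.card K = 9) :
    Nonempty (commutator (chevG2.group F) ≃* Cfsg.PSU 3 K 3) := by
  obtain ⟨f⟩ := FieldCongr.nonempty_ringEquiv_zmod hF
  obtain ⟨e⟩ := FieldCongr.nonempty_group_equiv chevG2 f
  obtain ⟨e1⟩ := Eval.commutator_mulEquiv e
  obtain ⟨e2⟩ := nonempty_main
  have hK9 : Fintype.card K = Fintype.card Fnine := by rw [hK, Fnine.card_eq]
  obtain ⟨e3⟩ := nonempty_su_congr (FiniteField.ringEquivOfCardEq hK9) 3 3
  have hK' : Fintype.card K = 3 ^ 2 := by rw [hK]; norm_num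
  have hc := Cfsg.Agent.Lib.Classical.HermOrders.card_center_SU (F := K) (q := 3) hK' 3 (by norm_num)
  have hbot : Subgroup.center (Cfsg.SU 3 K 3) = ⊥ := by
    apply Subgroup.eq_bot_of_card_eq
    rw [hc]
    norm_num
  have e4 : Cfsg.PSU 3 K 3 ≃* Cfsg.SU 3 K 3 :=
    (QuotientGroup.quotientMulEquivOfEq hbot).trans QuotientGroup.quotientBot
  exact ⟨e1.trans (e2.trans (e3.symm.trans e4.symm))⟩

end Cfsg.Agent.Lib.Chev.G22
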