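import Cfsg.Agent.Lib.Twisted.Bridge

/-!
Isomorphism of two permutation groups from a certificate for the group of pairs.
-/

set_option autoImplicit false

namespace Cfsg.Agent.Lib.Chev.PermDiag

open _root_.Cfsg.Agent.Lib.PermComp.Core

lemma equiv_of_image {P C : Type*} [Group P] [Group C] [Finite P] [Finite C] (S : Set P) (f : P →* C)
    (hc : Nat.card (Subgroup.closure (f '' S)) = Nat.card (Subgroup.closure S)) :
    Nonempty (Subgroup.closure S ≃* Subgroup.closure (f '' S)) := by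
  have hmap : (Subgroup.closure S).map f = Subgroup.closure (f '' S) := MonoidHom.map_closure f S
  have hsurj : Function.Surjective ((f.subgroupMap (Subgroup.closure S))) := f.subgroupMap_surjective _
  rw [← hmap] at hc ⊢
  exact ⟨MulEquiv.ofBijective _ (hsurj.bijective_of_nat_card_le hc.symm.le)⟩

/-- Two groups generated by the components of a set of pairs are isomorphic if the group generated by the
pairs has the same order as both. -/
theorem mulEquiv_of_pairs {A B : Type*} [Group A] [Group B] [Finite A] [Finite B] (S : Set (A × B))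
    (h1 : Nat.card (Subgroup.closure (Prod.fst '' S)) = Nat.card (Subgroup.closure S))
    (h2 : Nat.card (Subgroup.closure (Prod.snd '' S)) = Nat.card (Subgroup.closure S)) :
    Nonempty (Subgroup.closure (Prod.fst '' S) ≃* Subgroup.closure (Prod.snd '' S)) := by
  obtain ⟨e1⟩ := equiv_of_image S (MonoidHom.fst A B) h1
  obtain ⟨e2⟩ := equiv_of_image S (MonoidHom.snd A B) h2
  exact ⟨e1.symm.trans e2⟩

variable {w mask : ℕ} {N₁ N₂ : ℕ}

/-- The numbering of the sum. -/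
abbrev eSum (N₁ N₂ : ℕ) : Fin N₁ ⊕ Fin N₂ ≃ Fin (N₁ + N₂) := finSumFinEquiv

/-- The check on a triple of codes. -/
def tripleOK (w mask N₁ N₂ : ℕ) (x : ℕ × ℕ × ℕ) : Bool :=
  (List.range N₁).all (fun i => Nat.beq (app w mask x.2.2 i) (app w mask x.1 i)) &&
  (List.range N₂).all (fun i => Nat.beq (app w mask x.2.2 (N₁ + i)) (N₁ + app w mask x.2.1 i))

theorem rep_sum {x : ℕ × ℕ × ℕ} (hx : tripleOK w mask N₁ N₂ x = true) {g₁ : Equiv.Perm (Fin N₁)}
    {g₂ : Equiv.Perm (Fin N₂)} (h1 : Rep w mask (Equiv.refl _) x.1 g₁) (h2 : Rep w mask (Equiv.refl _) x.2.1 g₂) :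
    Rep w mask (eSum N₁ N₂) x.2.2 (Equiv.sumCongr g₁ g₂) := by
  simp only [tripleOK, Bool.and_eq_true, List.all_eq_true, List.mem_range] at hx
  rintro (a | a)
  · have e1 := Nat.eq_of_beq_eq_true (hx.1 a a.2)
    have e2 := h1 a
    simp only [Equiv.refl_apply] at e2
    show app w mask x.2.2 (a : ℕ) = ((g₁ a : Fin N₁) : ℕ)
    rw [e1, e2]
  · have e1 := Nat.eq_of_beq_eq_true (hx.2 a a.2)
    have e2 := h2 a
    simp only [Equiv.refl_apply] at e2
    show app w mask x.2.2 (N₁ + (a : ℕ)) = N₁ + ((g₂ a : Fin N₂) : ℕ)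
    rw [e1, e2]

/-- Two permutation groups from a certificate for the group of pairs. -/
theorem equiv_of_triples (L : List (ℕ × ℕ × ℕ))
    (h1 : ∀ x ∈ L, ∃ g, Rep w mask (Equiv.refl (Fin N₁)) x.1 g)
    (h2 : ∀ x ∈ L, ∃ g, Rep w mask (Equiv.refl (Fin N₂)) x.2.1 g)
    (h3 : ∀ x ∈ L, tripleOK w mask N₁ N₂ x = true)
    (c1 : Nat.card (H w mask (Equiv.refl (Fin N₁)) (L.map (·.1))) =
      Nat.card (H w mask (eSum N₁ N₂) (L.map (·.2.2))))
    (c2 : Nat.card (H w mask (Equiv.refl (Fin N₂)) (L.map (·.2.1))) =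
      Nat.card (H w mask (eSum N₁ N₂) (L.map (·.2.2)))) :
    Nonempty (H w mask (Equiv.refl (Fin N₁)) (L.map (·.1)) ≃* H w mask (Equiv.refl (Fin N₂)) (L.map (·.2.1))) := by
  classical
  -- representations are unique
  have uniq : ∀ {n : ℕ} {c : ℕ} {g g' : Equiv.Perm (Fin n)}, Rep w mask (Equiv.refl (Fin n)) c g →
      Rep w mask (Equiv.refl (Fin n)) c g' → g = g' := fun h h' => h.unique h'
  let S : Set (Equiv.Perm (Fin N₁) × Equiv.Perm (Fin N₂)) :=
    {p | ∃ x ∈ L, Rep w mask (Equiv.refl (Fin N₁)) x.1 p.1 ∧ Rep w mask (Equiv.refl (Fin N₂)) x.2.1 p.2}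
  have e1 : H w mask (Equiv.refl (Fin N₁)) (L.map (·.1)) = Subgroup.closure (Prod.fst '' S) := by
    apply H_eq_closure
    · intro c hc
      obtain ⟨x, hx, rfl⟩ := List.mem_map.1 hc
      obtain ⟨g, hg⟩ := h1 x hx
      obtain ⟨g', hg'⟩ := h2 x hx
      exact ⟨g, ⟨(g, g'), ⟨x, hx, hg, hg'⟩, rfl⟩, hg⟩
    · rintro _ ⟨p, ⟨x, hx, hg, _⟩, rfl⟩
      exact ⟨x.1, List.mem_map.2 ⟨x, hx, rfl⟩, hg⟩
  have e2 : H w mask (Equiv.refl (Fin N₂)) (L.map (·.2.1)) = Subgroup.closure (Prod.snd '' S) := by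
    apply H_eq_closure
    · intro c hc
      obtain ⟨x, hx, rfl⟩ := List.mem_map.1 hc
      obtain ⟨g, hg⟩ := h1 x hx
      obtain ⟨g', hg'⟩ := h2 x hx
      exact ⟨g', ⟨(g, g'), ⟨x, hx, hg, hg'⟩, rfl⟩, hg'⟩
    · rintro _ ⟨p, ⟨x, hx, _, hg⟩, rfl⟩
      exact ⟨x.2.1, List.mem_map.2 ⟨x, hx, rfl⟩, hg⟩
  have e3 : H w mask (eSum N₁ N₂) (L.map (·.2.2)) =
      (Subgroup.closure S).map (Equiv.Perm.sumCongrHom (Fin N₁) (Fin N₂)) := by
    rw [MonoidHom.map_closure]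
    apply H_eq_closure
    · intro c hc
      obtain ⟨x, hx, rfl⟩ := List.mem_map.1 hc
      obtain ⟨g, hg⟩ := h1 x hx
      obtain ⟨g', hg'⟩ := h2 x hx
      exact ⟨_, ⟨(g, g'), ⟨x, hx, hg, hg'⟩, rfl⟩, rep_sum (h3 x hx) hg hg'⟩
    · rintro _ ⟨p, ⟨x, hx, hg, hg'⟩, rfl⟩
      exact ⟨x.2.2, List.mem_map.2 ⟨x, hx, rfl⟩, rep_sum (h3 x hx) hg hg'⟩
  have e4 : Nat.card ((Subgroup.closure S).map (Equiv.Perm.sumCongrHom (Fin N₁) (Fin N₂))) =
      Nat.card (Subgroup.closure S) :=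
    Nat.card_congr (Subgroup.equivMapOfInjective _ _ (Equiv.Perm.sumCongrHom_injective)).toEquiv.symm
  rw [e3, e4] at c1 c2
  rw [e1] at c1
  rw [e2] at c2
  obtain ⟨φ⟩ := mulEquiv_of_pairs S c1 c2
  rw [e1, e2]
  exact ⟨φ⟩

end Cfsg.Agent.Lib.Chev.PermDiag
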